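import Mathlib

/-!
# Counting cycles of random permutations (helper559, for S5714, task A2)

* `card_agree` : the number of permutations which agree with a given one on a set;
* `sum_N` : `∑ x, N x k * k = n!` where `N x k` is the number of cycles of length `k` of `x`;
* `sum_prs` : `(∑ x, prs x k l) * (k * l) ≤ n!` where `prs x k l` is the number of pairs of different cycles of lengths
  `k`, `l` of `x`;
* `second` : for a finite set `P` of lengths between 2 and `n`, with `μ = ∑ k ∈ P, 1 / k`: at most `n! / μ` permutations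
  have no cycle of length in `P`.
-/

set_option autoImplicit false

namespace Cfsg.Agent.H559.Rg

open Equiv Equiv.Perm Finset

section count

variable {α : Type*} [Fintype α] [DecidableEq α]

instance instDecDisjoint (σ τ : Perm α) : Decidable (Disjoint σ τ) :=
  inferInstanceAs (Decidable (∀ x, σ x = x ∨ τ x = x))

theorem card_notMem (S : Finset α) : Fintype.card {a // a ∉ S} = Fintype.card α - S.card := by
  rw [Fintype.card_subtype, filter_not, filter_univ_mem, ← compl_eq_univ_sdiff, card_compl]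

/-- the number of permutations which agree with `ρ` on `S` -/
theorem card_agree (ρ : Perm α) (S : Finset α) :
    (univ.filter fun x : Perm α => ∀ a ∈ S, x a = ρ a).card = (Fintype.card α - S.card).factorial := by
  rw [← Fintype.card_subtype]
  let e1 : {x : Perm α // ∀ a ∈ S, x a = ρ a} ≃ {y : Perm α // ∀ a, ¬ (a ∉ S) → y a = a} :=
    { toFun := fun x => ⟨ρ⁻¹ * x.1, fun a ha => by
        rw [Perm.mul_apply, x.2 a (not_not.1 ha), ← Perm.mul_apply, inv_mul_cancel, Perm.one_apply]⟩
      invFun := fun y => ⟨ρ * y.1, fun a ha => by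
        rw [Perm.mul_apply, y.2 a (not_not.2 ha)]⟩
      left_inv := fun x => Subtype.ext (mul_inv_cancel_left _ _)
      right_inv := fun y => Subtype.ext (inv_mul_cancel_left _ _) }
  rw [Fintype.card_congr (e1.trans (Equiv.Perm.subtypeEquivSubtypePerm (fun a => a ∉ S)).symm), Fintype.card_perm,
    card_notMem]

/-- the cycles of length `k` -/
def cyc (α : Type*) [Fintype α] [DecidableEq α] (k : ℕ) : Finset (Perm α) :=
  univ.filter fun σ => σ.cycleType = {k}

theorem mem_cyc {k : ℕ} {σ : Perm α} : σ ∈ cyc α k ↔ σ.cycleType = {k} := by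
  unfold cyc
  rw [mem_filter]
  simp

theorem supp_of_type {k : ℕ} {σ : Perm α} (h : σ.cycleType = {k}) : σ.support.card = k := by
  rw [← sum_cycleType, h, Multiset.sum_singleton]

theorem isCycle_of_type {k : ℕ} {σ : Perm α} (h : σ.cycleType = {k}) : σ.IsCycle := by
  rw [← card_cycleType_eq_one, h, Multiset.card_singleton]

theorem card_cyc {k : ℕ} (hk : 2 ≤ k) : (cyc α k).card = (k - 1).factorial * (Fintype.card α).choose k := by
  by_cases h : k ≤ Fintype.card α
  · exact card_of_cycleType_singleton hk h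
  · rw [Nat.choose_eq_zero_of_lt (not_le.1 h), mul_zero, card_eq_zero, eq_empty_iff_forall_notMem]
    intro σ hσ
    apply h
    rw [← supp_of_type (mem_cyc.1 hσ)]
    exact card_le_univ _

/-- the cycles of length `l` disjoint from `σ` -/
theorem card_disj_le (σ : Perm α) {l : ℕ} (hl : 2 ≤ l) :
    ((cyc α l).filter fun τ : Perm α => Disjoint σ τ).card ≤
      (l - 1).factorial * (Fintype.card α - σ.support.card).choose l := by
  have h := card_cyc (α := {a // a ∉ σ.support}) hl
  rw [card_notMem] at h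
  rw [← h]
  have hsub : ((cyc α l).filter fun τ : Perm α => Disjoint σ τ) ⊆
      (cyc {a // a ∉ σ.support} l).image (ofSubtype : Perm {a // a ∉ σ.support} → Perm α) := by
    intro τ hτ
    obtain ⟨h1, h2⟩ := mem_filter.1 hτ
    rw [mem_cyc] at h1
    have h3 : ∀ x, τ x ≠ x → x ∉ σ.support := by
      intro x hx hxs
      rcases h2 x with h4 | h4
      · exact mem_support.1 hxs h4
      · exact hx h4
    have h5 : ∀ x, τ x ∉ σ.support ↔ x ∉ σ.support := by
      intro x
      by_cases hx : τ x = x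
      · rw [hx]
      · exact ⟨fun _ => h3 x hx, fun _ => h3 _ fun h6 => hx (τ.injective h6)⟩
    have h6 : ofSubtype (τ.subtypePerm h5) = τ := ofSubtype_subtypePerm h5 h3
    refine mem_image.2 ⟨τ.subtypePerm h5, ?_, h6⟩
    rw [mem_cyc, ← cycleType_ofSubtype, h6, h1]
  exact (card_le_card hsub).trans card_image_le

/-- the number of cycles of length `k` -/
def N (x : Perm α) (k : ℕ) : ℕ := (x.cycleFactorsFinset.filter fun σ => σ.cycleType = {k}).card

/-- the number of pairs of different cycles of lengths `k`, `l` -/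
def prs (x : Perm α) (k l : ℕ) : ℕ :=
  ((x.cycleFactorsFinset ×ˢ x.cycleFactorsFinset).filter fun q =>
    q.1 ≠ q.2 ∧ q.1.cycleType = {k} ∧ q.2.cycleType = {l}).card

theorem sum_N {k : ℕ} (hk : 2 ≤ k) (hkn : k ≤ Fintype.card α) :
    (∑ x : Perm α, N x k) * k = (Fintype.card α).factorial := by
  have h1 : ∑ x : Perm α, N x k = ∑ x : Perm α, ((cyc α k).bipartiteAbove (fun x σ => σ ∈ x.cycleFactorsFinset) x).card := by
    refine sum_congr rfl fun x _ => ?_
    unfold N bipartiteAbove
    congr 1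
    ext σ
    rw [mem_filter, mem_filter, mem_cyc, and_comm]
  rw [h1, sum_card_bipartiteAbove_eq_sum_card_bipartiteBelow]
  have h2 : ∀ σ ∈ cyc α k, ((univ : Finset (Perm α)).bipartiteBelow (fun x σ => σ ∈ x.cycleFactorsFinset) σ).card =
      (Fintype.card α - k).factorial := by
    intro σ hσ
    rw [mem_cyc] at hσ
    rw [← supp_of_type hσ, ← card_agree σ σ.support]
    unfold bipartiteBelow
    congr 1
    ext x
    rw [mem_filter, mem_filter]
    simp only [mem_univ, true_and, mem_cycleFactorsFinset_iff]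
    exact ⟨fun h a ha => (h.2 a ha).symm, fun h => ⟨isCycle_of_type hσ, fun a ha => (h a ha).symm⟩⟩
  rw [sum_congr rfl h2, sum_const, smul_eq_mul, card_cyc hk]
  have h3 : k.factorial = k * (k - 1).factorial := by
    rw [Nat.mul_factorial_pred (by omega)]
  calc (k - 1).factorial * (Fintype.card α).choose k * (Fintype.card α - k).factorial * k
      = (Fintype.card α).choose k * (k * (k - 1).factorial) * (Fintype.card α - k).factorial := by ring
    _ = (Fintype.card α).factorial := by rw [← h3, Nat.choose_mul_factorial_mul_factorial hkn]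

theorem disjoint_of_mem {x σ τ : Perm α} (hσ : σ ∈ x.cycleFactorsFinset) (hτ : τ ∈ x.cycleFactorsFinset)
    (hne : σ ≠ τ) : Disjoint σ τ :=
  cycleFactorsFinset_pairwise_disjoint x hσ hτ hne

theorem card_both_le {σ τ : Perm α} (h : Disjoint σ τ) :
    (univ.filter fun x : Perm α => σ ∈ x.cycleFactorsFinset ∧ τ ∈ x.cycleFactorsFinset).card ≤
      (Fintype.card α - (σ.support.card + τ.support.card)).factorial := by
  have h1 : (σ.support ∪ τ.support).card = σ.support.card + τ.support.card :=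
    card_union_of_disjoint (disjoint_iff_disjoint_support.1 h)
  rw [← h1, ← card_agree (σ * τ)]
  apply card_le_card
  intro x hx
  obtain ⟨-, h2, h3⟩ := mem_filter.1 hx
  rw [mem_cycleFactorsFinset_iff] at h2 h3
  refine mem_filter.2 ⟨mem_univ _, fun a ha => ?_⟩
  rw [Perm.mul_apply]
  rcases mem_union.1 ha with ha | ha
  · have h4 : τ a = a := (h a).resolve_left (mem_support.1 ha)
    rw [h4, h2.2 a ha]
  · have h4 : σ (τ a) = τ a := (h (τ a)).resolve_right fun h5 => mem_support.1 ha (τ.injective h5)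
    rw [h4, h3.2 a ha]

theorem sum_prs {k l : ℕ} (hk : 2 ≤ k) (hl : 2 ≤ l) :
    (∑ x : Perm α, prs x k l) * (k * l) ≤ (Fintype.card α).factorial := by
  set n := Fintype.card α with hn
  set D : Finset (Perm α × Perm α) := (cyc α k ×ˢ cyc α l).filter fun q => Disjoint q.1 q.2 with hD
  have h1 : ∑ x : Perm α, prs x k l = ∑ x : Perm α,
      (D.bipartiteAbove (fun x q => q.1 ∈ x.cycleFactorsFinset ∧ q.2 ∈ x.cycleFactorsFinset) x).card := by
    refine sum_congr rfl fun x _ => ?_
    unfold prs bipartiteAbove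
    congr 1
    ext q
    rw [mem_filter, mem_filter, hD, mem_filter, mem_product, mem_product, mem_cyc, mem_cyc]
    constructor
    · rintro ⟨⟨a1, a2⟩, a3, a4, a5⟩
      exact ⟨⟨⟨a4, a5⟩, disjoint_of_mem a1 a2 a3⟩, a1, a2⟩
    · rintro ⟨⟨⟨a4, a5⟩, a3⟩, a1, a2⟩
      refine ⟨⟨a1, a2⟩, ?_, a4, a5⟩
      intro h
      rw [← h, disjoint_refl_iff] at a3
      have := isCycle_of_type a4
      rw [a3] at this
      exact this.ne_one rfl
  have h2 : ∀ q ∈ D, ((univ : Finset (Perm α)).bipartiteBelow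
      (fun x q => q.1 ∈ x.cycleFactorsFinset ∧ q.2 ∈ x.cycleFactorsFinset) q).card ≤ (n - (k + l)).factorial := by
    intro q hq
    rw [hD, mem_filter, mem_product, mem_cyc, mem_cyc] at hq
    have h3 := card_both_le hq.2
    rw [supp_of_type hq.1.1, supp_of_type hq.1.2] at h3
    exact h3
  have h3 : D.card ≤ (cyc α k).card * ((l - 1).factorial * (n - k).choose l) := by
    have e1 : D.card = ∑ σ ∈ cyc α k, ((cyc α l).filter fun τ : Perm α => Disjoint σ τ).card := by
      rw [hD, card_filter, sum_product]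
      refine sum_congr rfl fun σ _ => ?_
      rw [card_filter]
    rw [e1, ← smul_eq_mul]
    refine sum_le_card_nsmul _ _ _ fun σ hσ => ?_
    have h4 := card_disj_le σ hl
    rwa [supp_of_type (mem_cyc.1 hσ)] at h4
  rw [card_cyc hk] at h3
  have h4 : ∑ x : Perm α, prs x k l ≤ D.card * (n - (k + l)).factorial := by
    rw [h1, sum_card_bipartiteAbove_eq_sum_card_bipartiteBelow, ← smul_eq_mul]
    exact sum_le_card_nsmul _ _ _ h2
  have h5 : ∀ m j : ℕ, 2 ≤ j → j * ((j - 1).factorial * m.choose j) * (m - j).factorial ≤ m.factorial := by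
    intro m j hj
    by_cases hjm : j ≤ m
    · rw [← mul_assoc, Nat.mul_factorial_pred (by omega), mul_comm j.factorial,
        Nat.choose_mul_factorial_mul_factorial hjm]
    · rw [Nat.choose_eq_zero_of_lt (not_le.1 hjm), mul_zero, mul_zero, zero_mul]
      exact Nat.zero_le _
  calc (∑ x : Perm α, prs x k l) * (k * l)
      ≤ ((k - 1).factorial * n.choose k * ((l - 1).factorial * (n - k).choose l)) * (n - (k + l)).factorial * (k * l) := by
        gcongr
        exact h4.trans (Nat.mul_le_mul_right _ h3)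
    _ = k * ((k - 1).factorial * n.choose k) * (l * ((l - 1).factorial * (n - k).choose l) * (n - k - l).factorial) := by
        rw [Nat.sub_sub]; ring
    _ ≤ k * ((k - 1).factorial * n.choose k) * (n - k).factorial := by
        gcongr
        exact h5 _ _ hl
    _ ≤ n.factorial := h5 _ _ hk

/-! ### Moments -/

theorem sum_N_real {k : ℕ} (hk : 2 ≤ k) (hkn : k ≤ Fintype.card α) :
    ∑ x : Perm α, (N x k : ℝ) = (Fintype.card α).factorial * (1 / (k : ℝ)) := by
  have h := sum_N (α := α) hk hkn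
  have h0 : (k : ℝ) ≠ 0 := by
    have : 0 < k := by omega
    exact_mod_cast this.ne'
  rw [mul_one_div, eq_div_iff h0, ← h]
  push_cast
  ring

theorem sum_prs_real {k l : ℕ} (hk : 2 ≤ k) (hl : 2 ≤ l) :
    ∑ x : Perm α, (prs x k l : ℝ) ≤ (Fintype.card α).factorial * (1 / (k : ℝ) * (1 / (l : ℝ))) := by
  have h := sum_prs (α := α) hk hl
  have h1 : (0 : ℝ) < k := by exact_mod_cast (by omega : 0 < k)
  have h2 : (0 : ℝ) < l := by exact_mod_cast (by omega : 0 < l)
  rw [one_div_mul_one_div, mul_one_div, le_div_iff₀ (mul_pos h1 h2)]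
  exact_mod_cast h

theorem N_mul_le (x : Perm α) (k l : ℕ) : N x k * N x l ≤ prs x k l + if k = l then N x k else 0 := by
  set A : ℕ → Finset (Perm α) := fun k => x.cycleFactorsFinset.filter fun σ => σ.cycleType = {k} with hA
  have h1 : N x k * N x l = (A k ×ˢ A l).card := by rw [card_product]; rfl
  rw [h1]
  by_cases hkl : k = l
  · rw [if_pos hkl]
    have h2 : A k ×ˢ A l ⊆ ((x.cycleFactorsFinset ×ˢ x.cycleFactorsFinset).filter fun q =>
        q.1 ≠ q.2 ∧ q.1.cycleType = {k} ∧ q.2.cycleType = {l}) ∪ (A k).image fun σ => (σ, σ) := by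
      intro q hq
      obtain ⟨h3, h4⟩ := mem_product.1 hq
      rw [mem_union]
      by_cases h5 : q.1 = q.2
      · right
        exact mem_image.2 ⟨q.1, h3, Prod.ext rfl h5⟩
      · left
        obtain ⟨h6, h7⟩ := mem_filter.1 h3
        obtain ⟨h8, h9⟩ := mem_filter.1 h4
        exact mem_filter.2 ⟨mem_product.2 ⟨h6, h8⟩, h5, h7, h9⟩
    exact (card_le_card h2).trans ((card_union_le _ _).trans (Nat.add_le_add_left card_image_le _))
  · rw [if_neg hkl, add_zero]
    apply card_le_card
    intro q hq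
    obtain ⟨h3, h4⟩ := mem_product.1 hq
    obtain ⟨h6, h7⟩ := mem_filter.1 h3
    obtain ⟨h8, h9⟩ := mem_filter.1 h4
    refine mem_filter.2 ⟨mem_product.2 ⟨h6, h8⟩, fun h5 => hkl ?_, h7, h9⟩
    rw [h5, h9] at h7
    exact (Multiset.singleton_inj.1 h7).symm

/-- **the second moment**: at most `n! / μ` permutations have no cycle of length in `P` -/
theorem second (P : Finset ℕ) (hP : ∀ k ∈ P, 2 ≤ k ∧ k ≤ Fintype.card α) (hμ : 0 < ∑ k ∈ P, (1 : ℝ) / k) :
    ((univ.filter fun x : Perm α => ∀ k ∈ P, N x k = 0).card : ℝ) * (∑ k ∈ P, (1 : ℝ) / k) ≤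
      (Fintype.card α).factorial := by
  set μ : ℝ := ∑ k ∈ P, (1 : ℝ) / k with hμd
  set F : ℝ := ((Fintype.card α).factorial : ℝ) with hF
  set X : Perm α → ℝ := fun x => ∑ k ∈ P, (N x k : ℝ) with hX
  have s1 : ∑ x : Perm α, X x = F * μ := by
    rw [hX, sum_comm, hμd, mul_sum]
    exact sum_congr rfl fun k hk => sum_N_real (hP k hk).1 (hP k hk).2
  have s2 : ∑ x : Perm α, X x ^ 2 ≤ F * (μ ^ 2 + μ) := by
    have h1 : ∀ x, X x ^ 2 ≤ ∑ k ∈ P, ∑ l ∈ P, (prs x k l : ℝ) + X x := by
      intro x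
      have h2 : X x ^ 2 = ∑ k ∈ P, ∑ l ∈ P, (N x k : ℝ) * N x l := by
        rw [pow_two, hX, sum_mul_sum]
      rw [h2]
      have h3 : ∀ k ∈ P, ∑ l ∈ P, (N x k : ℝ) * N x l ≤ ∑ l ∈ P, (prs x k l : ℝ) + N x k := by
        intro k hk
        have h4 : ∀ l ∈ P, (N x k : ℝ) * N x l ≤ (prs x k l : ℝ) + if k = l then (N x k : ℝ) else 0 := by
          intro l _
          have := N_mul_le x k l
          split_ifs at this ⊢ <;> exact_mod_cast this
        refine (sum_le_sum h4).trans ?_
        rw [sum_add_distrib, sum_ite_eq P k, if_pos hk]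
      refine (sum_le_sum h3).trans ?_
      rw [sum_add_distrib]
    refine (sum_le_sum fun x _ => h1 x).trans ?_
    rw [sum_add_distrib, s1, mul_add, pow_two]
    apply add_le_add _ le_rfl
    rw [sum_comm, hμd, sum_mul_sum, mul_sum]
    refine sum_le_sum fun k hk => ?_
    rw [sum_comm, mul_sum]
    exact sum_le_sum fun l hl => sum_prs_real (hP k hk).1 (hP l hl).1
  have s3 : ((univ.filter fun x : Perm α => ∀ k ∈ P, N x k = 0).card : ℝ) * μ ^ 2 ≤ ∑ x : Perm α, (X x - μ) ^ 2 := by
    rw [card_eq_sum_ones, Nat.cast_sum, sum_mul]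
    refine le_trans (sum_le_sum (g := fun x => (X x - μ) ^ 2) fun x hx => ?_)
      (sum_le_sum_of_subset_of_nonneg (filter_subset _ _) fun x _ _ => sq_nonneg _)
    have h1 : X x = 0 := by
      rw [hX]
      exact sum_eq_zero fun k hk => by rw [(mem_filter.1 hx).2 k hk, Nat.cast_zero]
    rw [h1, zero_sub, neg_sq, Nat.cast_one, one_mul]
  have s4 : ∑ x : Perm α, (X x - μ) ^ 2 = ∑ x : Perm α, X x ^ 2 - 2 * μ * ∑ x : Perm α, X x + F * μ ^ 2 := by
    have h1 : ∀ x, (X x - μ) ^ 2 = X x ^ 2 - 2 * μ * X x + μ ^ 2 := fun x => by ring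
    rw [sum_congr rfl fun x _ => h1 x, sum_add_distrib, sum_sub_distrib, ← mul_sum, sum_const, nsmul_eq_mul,
      card_univ, Fintype.card_perm]
  rw [s1] at s4
  have s5 : ((univ.filter fun x : Perm α => ∀ k ∈ P, N x k = 0).card : ℝ) * μ ^ 2 ≤ F * μ := by
    calc _ ≤ ∑ x : Perm α, (X x - μ) ^ 2 := s3
      _ = ∑ x : Perm α, X x ^ 2 - 2 * μ * (F * μ) + F * μ ^ 2 := s4
      _ ≤ F * (μ ^ 2 + μ) - 2 * μ * (F * μ) + F * μ ^ 2 := by linarith
      _ = F * μ := by ring
  rw [pow_two, ← mul_assoc] at s5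
  exact le_of_mul_le_mul_right s5 hμ

/-- **the first moment**: permutations with a cycle of length `p ∈ P` and another one of length divisible by `p` -/
theorem card_bad_le (P : Finset ℕ) (hP : ∀ k ∈ P, 2 ≤ k) :
    ((univ.filter fun x : Perm α => ∃ p ∈ P, ∃ j ∈ range (Fintype.card α), prs x p (p * (j + 1)) ≠ 0).card : ℝ) ≤
      (Fintype.card α).factorial * ∑ p ∈ P, ∑ j ∈ range (Fintype.card α), 1 / (p : ℝ) * (1 / ((p * (j + 1) : ℕ) : ℝ)) := by
  have h1 : ((univ.filter fun x : Perm α => ∃ p ∈ P, ∃ j ∈ range (Fintype.card α), prs x p (p * (j + 1)) ≠ 0).card : ℝ) ≤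
      ∑ x : Perm α, ∑ p ∈ P, ∑ j ∈ range (Fintype.card α), (prs x p (p * (j + 1)) : ℝ) := by
    rw [card_eq_sum_ones, Nat.cast_sum]
    refine le_trans (sum_le_sum (g := fun x => ∑ p ∈ P, ∑ j ∈ range (Fintype.card α), (prs x p (p * (j + 1)) : ℝ))
      fun x hx => ?_) (sum_le_sum_of_subset_of_nonneg (filter_subset _ _) fun x _ _ =>
        sum_nonneg fun p _ => sum_nonneg fun j _ => Nat.cast_nonneg _)
    obtain ⟨-, p, hp, j, hj, hne⟩ := mem_filter.1 hx
    have h2 : (1 : ℝ) ≤ (prs x p (p * (j + 1)) : ℝ) := by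
      exact_mod_cast Nat.one_le_iff_ne_zero.2 hne
    rw [Nat.cast_one]
    refine h2.trans ((single_le_sum (f := fun j => (prs x p (p * (j + 1)) : ℝ)) (fun j _ => Nat.cast_nonneg _) hj).trans ?_)
    exact single_le_sum (f := fun p => ∑ j ∈ range (Fintype.card α), (prs x p (p * (j + 1)) : ℝ))
      (fun p _ => sum_nonneg fun j _ => Nat.cast_nonneg _) hp
  refine h1.trans ?_
  rw [sum_comm, mul_sum]
  refine sum_le_sum fun p hp => ?_
  rw [sum_comm, mul_sum]
  refine sum_le_sum fun j _ => sum_prs_real (hP p hp) ?_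
  have := hP p hp
  nlinarith [Nat.zero_le j]

/-- a permutation with exactly one cycle of length `p`, a prime, and no other cycle of length divisible by `p` has a
power which is a `p`-cycle -/
theorem good_pow {x : Perm α} {p : ℕ} (hp : p.Prime) (hN : N x p ≠ 0)
    (h : ∀ j ∈ range (Fintype.card α), prs x p (p * (j + 1)) = 0) :
    ∃ m : ℕ, (x ^ m).IsCycle ∧ (x ^ m).support.card = p := by
  unfold N at hN
  obtain ⟨σ, hσ⟩ := card_ne_zero.1 hN
  obtain ⟨hσx, hσp⟩ := mem_filter.1 hσ
  have hσc := isCycle_of_type hσp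
  have hσs := supp_of_type hσp
  set ρ := x * σ⁻¹ with hρ
  have hd : Disjoint ρ σ := disjoint_mul_inv_of_mem_cycleFactorsFinset hσx
  have hx : x = ρ * σ := by rw [hρ, inv_mul_cancel_right]
  have hcop : ¬ p ∣ orderOf ρ := by
    intro hdvd
    have h1 : p ∣ ρ.cycleType.prod := by
      refine hdvd.trans ?_
      rw [← lcm_cycleType]
      exact Multiset.lcm_dvd.2 fun b hb => Multiset.dvd_prod hb
    obtain ⟨c, hc, hpc⟩ := (Nat.prime_iff.1 hp).exists_mem_multiset_dvd h1
    rw [cycleType_def, Multiset.mem_map] at hc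
    obtain ⟨τ, hτ, hτc⟩ := hc
    have hτ' : τ ∈ ρ.cycleFactorsFinset := hτ
    rw [hρ, cycleFactorsFinset_mul_inv_mem_eq_sdiff hσx, mem_sdiff, mem_singleton] at hτ'
    obtain ⟨hτx, hne⟩ := hτ'
    have hτcy : τ.IsCycle := (mem_cycleFactorsFinset_iff.1 hτx).1
    have hcs : τ.support.card = c := hτc
    obtain ⟨j, hj⟩ := hpc
    have hc0 : 0 < c := by
      rw [← hcs]
      have := hτcy.two_le_card_support
      omega
    have hj0 : 0 < j := Nat.pos_of_ne_zero (by rintro rfl; rw [mul_zero] at hj; omega)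
    have hjn : j - 1 ∈ range (Fintype.card α) := by
      rw [mem_range]
      have h2 : c ≤ Fintype.card α := hcs ▸ card_le_univ _
      have h3 : j ≤ c := by
        rw [hj]
        exact Nat.le_mul_of_pos_left _ hp.pos
      omega
    have h4 := h _ hjn
    rw [Nat.sub_add_cancel hj0, ← hj] at h4
    unfold prs at h4
    rw [card_eq_zero, filter_eq_empty_iff] at h4
    refine h4 (x := (σ, τ)) (mem_product.2 ⟨hσx, hτx⟩) ⟨fun e => hne e.symm, hσp, ?_⟩
    show τ.cycleType = {c}
    rw [hτcy.cycleType, hcs]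
  have hpow : x ^ orderOf ρ = σ ^ orderOf ρ := by
    rw [hx, hd.commute.mul_pow, pow_orderOf_eq_one, one_mul]
  have ho : orderOf σ = p := by rw [hσc.orderOf, hσs]
  have ho' : orderOf (σ ^ orderOf ρ) = p := by
    rw [Nat.Coprime.orderOf_pow, ho]
    rw [ho]
    exact (Nat.Prime.coprime_iff_not_dvd hp).2 hcop
  have hs : (σ ^ orderOf ρ).support.card ≤ p := by
    rw [← hσs]
    exact card_le_card (support_pow_le σ _)
  have hcyc : (σ ^ orderOf ρ).IsCycle := by
    apply isCycle_of_prime_order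
    · rw [ho']; exact hp
    · rw [ho']
      have := hp.pos
      omega
  exact ⟨orderOf ρ, by rw [hpow]; exact hcyc, by rw [hpow, ← hcyc.orderOf, ho']⟩

end count

end Cfsg.Agent.H559.Rg
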