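import Cfsg.Agent.H559.Rg.CycCount
import Cfsg.Agent.H71.Rg.Primes

/-!
# S5714, task A2 (helper559): almost all permutations have a power which is a cycle of prime length `p ≤ n - 3`
-/

set_option autoImplicit false

namespace Cfsg.Agent.H559.Rg

open Equiv Equiv.Perm Finset

theorem sum_inner {n p : ℕ} (hp : 0 < p) :
    ∑ j ∈ range n, 1 / (p : ℝ) * (1 / ((p * (j + 1) : ℕ) : ℝ)) ≤ (1 + Real.log n) * ((p : ℝ) ^ 2)⁻¹ := by
  have hp0 : (p : ℝ) ≠ 0 := by exact_mod_cast hp.ne'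
  have h1 : ∀ j ∈ range n, 1 / (p : ℝ) * (1 / ((p * (j + 1) : ℕ) : ℝ)) = ((p : ℝ) ^ 2)⁻¹ * ((j : ℝ) + 1)⁻¹ := by
    intro j _
    have hj : (j : ℝ) + 1 ≠ 0 := by positivity
    push_cast
    field_simp
  rw [sum_congr rfl h1, ← mul_sum, mul_comm]
  apply mul_le_mul_of_nonneg_right _ (by positivity)
  have h2 := harmonic_le_one_add_log n
  have h3 : ((harmonic n : ℚ) : ℝ) = ∑ j ∈ range n, ((j : ℝ) + 1)⁻¹ := by
    unfold harmonic
    push_cast
    rfl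
  rwa [h3] at h2

/-- **A2** -/
theorem cycle_pow : ∀ ε : ℝ, 0 < ε → ∃ N : ℕ, ∀ n : ℕ, N ≤ n → (1 - ε) * (n.factorial : ℝ) ≤
    Nat.card {x : Equiv.Perm (Fin n) // ∃ m p : ℕ, p.Prime ∧ p + 3 ≤ n ∧ (x ^ m).IsCycle ∧ (x ^ m).support.card = p} := by
  intro ε hε
  obtain ⟨N₁, hN₁⟩ := Cfsg.Agent.H71.Rg.primes (2 / ε)
  refine ⟨max N₁ (max ⌈Real.exp (max 1 (4 / ε))⌉₊ 16), fun n hn => ?_⟩
  have hn1 : N₁ ≤ n := (le_max_left _ _).trans hn
  have hn2 : ⌈Real.exp (max 1 (4 / ε))⌉₊ ≤ n := ((le_max_left _ _).trans (le_max_right _ _)).trans hn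
  have hn3 : 16 ≤ n := ((le_max_right _ _).trans (le_max_right _ _)).trans hn
  have hμ := hN₁ n hn1
  set L := ⌈Real.log n ^ 2⌉₊ with hL
  set P := (Ioc L (Nat.sqrt n)).filter Nat.Prime with hP
  set μ : ℝ := ∑ p ∈ P, (1 : ℝ) / p with hμd
  set t := Real.log n with ht
  have hnpos : (0 : ℝ) < n := by exact_mod_cast (by omega : 0 < n)
  have ht1 : max 1 (4 / ε) ≤ t := by
    rw [ht, Real.le_log_iff_exp_le hnpos]
    exact (Nat.le_ceil _).trans (by exact_mod_cast hn2)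
  have t1 : 1 ≤ t := (le_max_left _ _).trans ht1
  have t2 : 4 / ε ≤ t := (le_max_right _ _).trans ht1
  have hμ0 : 0 < μ := lt_of_lt_of_le (by positivity) hμ
  have hF : (0 : ℝ) < (n.factorial : ℝ) := by exact_mod_cast n.factorial_pos
  have hcard : Fintype.card (Fin n) = n := Fintype.card_fin n
  have hsq : Nat.sqrt n + 3 ≤ n := by
    have h1 := Nat.sqrt_le n
    have h2 : 4 ≤ Nat.sqrt n := by rw [Nat.le_sqrt]; omega
    nlinarith
  have hPp : ∀ p ∈ P, p.Prime ∧ p + 3 ≤ n := by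
    intro p hp
    obtain ⟨h1, h2⟩ := mem_filter.1 hp
    have := (mem_Ioc.1 h1).2
    exact ⟨h2, by omega⟩
  -- second moment
  have b1 : ((univ.filter fun x : Perm (Fin n) => ∀ k ∈ P, N x k = 0).card : ℝ) ≤ ε / 2 * n.factorial := by
    have h1 := second (α := Fin n) P (fun k hk => ⟨(hPp k hk).1.two_le, by
      rw [hcard]
      have := (hPp k hk).2
      omega⟩) hμ0
    rw [hcard] at h1
    have h2 : ((univ.filter fun x : Perm (Fin n) => ∀ k ∈ P, N x k = 0).card : ℝ) * (2 / ε) ≤ n.factorial :=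
      (mul_le_mul_of_nonneg_left hμ (Nat.cast_nonneg _)).trans h1
    rw [mul_div_assoc', div_le_iff₀ hε] at h2
    linarith
  -- first moment
  have b2 : ((univ.filter fun x : Perm (Fin n) => ∃ p ∈ P, ∃ j ∈ range (Fintype.card (Fin n)),
      prs x p (p * (j + 1)) ≠ 0).card : ℝ) ≤ ε / 2 * n.factorial := by
    refine (card_bad_le (α := Fin n) P fun k hk => (hPp k hk).1.two_le).trans ?_
    rw [hcard, mul_comm]
    apply mul_le_mul_of_nonneg_right _ hF.le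
    have h1 : ∑ p ∈ P, ∑ j ∈ range n, 1 / (p : ℝ) * (1 / ((p * (j + 1) : ℕ) : ℝ)) ≤
        ∑ p ∈ P, (1 + t) * ((p : ℝ) ^ 2)⁻¹ := sum_le_sum fun p hp => sum_inner (hPp p hp).1.pos
    refine h1.trans ?_
    rw [← mul_sum]
    have hL0 : L ≠ 0 := (Nat.ceil_pos.2 (pow_pos (by linarith) 2)).ne'
    have h2 : ∑ p ∈ P, ((p : ℝ) ^ 2)⁻¹ ≤ (t ^ 2)⁻¹ := by
      have h3 : ∑ p ∈ P, ((p : ℝ) ^ 2)⁻¹ ≤ ∑ p ∈ Ioc L (Nat.sqrt n), ((p : ℝ) ^ 2)⁻¹ :=
        sum_le_sum_of_subset_of_nonneg (filter_subset _ _) fun _ _ _ => by positivity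
      refine h3.trans ?_
      by_cases hLs : L ≤ Nat.sqrt n
      · have h4 := sum_Ioc_inv_sq_le_sub (α := ℝ) hL0 hLs
        have h5 : (0 : ℝ) ≤ ((Nat.sqrt n : ℕ) : ℝ)⁻¹ := by positivity
        have h6 : ((L : ℕ) : ℝ)⁻¹ ≤ (t ^ 2)⁻¹ := by
          apply inv_anti₀ (by positivity)
          exact Nat.le_ceil _
        linarith
      · rw [Ioc_eq_empty (by omega), sum_empty]
        positivity
    calc (1 + t) * ∑ p ∈ P, ((p : ℝ) ^ 2)⁻¹ ≤ (1 + t) * (t ^ 2)⁻¹ := by gcongr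
      _ ≤ (2 * t) * (t ^ 2)⁻¹ := by gcongr; linarith
      _ = 2 / t := by field_simp
      _ ≤ ε / 2 := by
        rw [div_le_iff₀ (by linarith)]
        rw [div_le_iff₀ hε] at t2
        linarith
  -- conclusion
  classical
  rw [Nat.card_eq_fintype_card, Fintype.card_subtype]
  set G := univ.filter fun x : Perm (Fin n) => ∃ m p : ℕ, p.Prime ∧ p + 3 ≤ n ∧ (x ^ m).IsCycle ∧
    (x ^ m).support.card = p with hG
  set Z := univ.filter fun x : Perm (Fin n) => ∀ k ∈ P, N x k = 0 with hZ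
  set B := univ.filter fun x : Perm (Fin n) => ∃ p ∈ P, ∃ j ∈ range (Fintype.card (Fin n)),
    prs x p (p * (j + 1)) ≠ 0 with hB
  have h1 : (univ : Finset (Perm (Fin n))) ⊆ G ∪ (Z ∪ B) := by
    intro x _
    rw [mem_union, mem_union]
    by_cases hz : x ∈ Z
    · exact Or.inr (Or.inl hz)
    by_cases hb : x ∈ B
    · exact Or.inr (Or.inr hb)
    left
    rw [hZ, mem_filter] at hz
    rw [hB, mem_filter] at hb
    simp only [mem_univ, true_and] at hz hb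
    push Not at hz hb
    obtain ⟨p, hp, hNp⟩ := hz
    obtain ⟨m, h3, h4⟩ := good_pow (hPp p hp).1 hNp (hb p hp)
    exact mem_filter.2 ⟨mem_univ _, m, p, (hPp p hp).1, (hPp p hp).2, h3, h4⟩
  have h2 := card_le_card h1
  rw [card_univ, Fintype.card_perm, hcard] at h2
  have h3 := (h2.trans (card_union_le _ _)).trans (Nat.add_le_add_left (card_union_le _ _) _)
  have h4 : (n.factorial : ℝ) ≤ (G.card : ℝ) + ((Z.card : ℝ) + (B.card : ℝ)) := by exact_mod_cast h3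
  linarith

end Cfsg.Agent.H559.Rg
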